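import Mathlib

/-! Groups of order dividing `|L₂(p²)|`: arithmetic. -/

set_option autoImplicit false

namespace H15.L2S

/-- the `p'`-part of `|L₂(p²)|`, `p = 2a+1` -/
def mm (a : ℕ) : ℕ := 4 * a * (a + 1) * (2 * a * (a + 1) + 1)

theorem mm_eq (a : ℕ) : (2 * a + 1) ^ 4 = 2 * mm a + 1 := by unfold mm; ring

theorem mod_ex {t p : ℕ} (hp : 1 < p) (h : t ≡ 1 [MOD p]) : ∃ c, t = 1 + c * p := by
  have h1 : t % p = 1 := by rw [h, Nat.mod_eq_of_lt hp]
  exact ⟨t / p, by have := Nat.mod_add_div t p; rw [h1] at this; rw [mul_comm]; omega⟩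

theorem key {q c k : ℕ} (hq : 2 ≤ q) (h : c * (1 + k * q) + 1 = q * q) (hk : 1 ≤ k) : k = 1 := by
  have h1 : q ∣ c + 1 := (Nat.dvd_add_left (Dvd.intro (c * k) rfl)).1
    ⟨q, by rw [← h]; ring⟩
  obtain ⟨l, hl⟩ := h1
  have hl1 : 1 ≤ l := by
    rcases l with _ | l
    · simp at hl
    · omega
  have h2 : q * (l * (1 + k * q)) = q * (q + k) := by
    have : q * (l * (1 + k * q)) = (c + 1) * (1 + k * q) := by rw [hl]; ring
    rw [this]; nlinarith
  have h3 := Nat.eq_of_mul_eq_mul_left (by omega) h2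
  by_contra h4
  have h5 : 2 ≤ k := by omega
  have : 1 + k * q ≤ l * (1 + k * q) := Nat.le_mul_of_pos_left _ hl1
  nlinarith

variable {p a : ℕ}

theorem cop (e : p = 2 * a + 1) : Nat.Coprime p (mm a) := by
  have h : Nat.Coprime (p ^ 4) (mm a) := by rw [e, mm_eq]; simp
  exact h.coprime_dvd_left (dvd_pow_self p (by norm_num))

theorem dvd_mm {t : ℕ} (h : Nat.Coprime t p) (hd : t ∣ p ^ 2 * mm a) :
    t ∣ mm a := (h.pow_right 2).dvd_of_dvd_mul_left hd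

theorem cop_of_mod {t : ℕ} (h : t ≡ 1 [MOD p]) : Nat.Coprime t p := by
  rw [Nat.Coprime, h.gcd_eq]; simp

theorem ar1 (e : p = 2 * a + 1) (a3 : 3 ≤ a) {r b : ℕ} (hr : r.Prime) (hd : r ^ b ∣ p ^ 2 * mm a)
    (h : r ^ b ≡ 1 [MOD p]) (hb : b ≠ 0) : r = 2 ∧ r ^ b = p + 1 := by
  have hd' := dvd_mm (cop_of_mod h) hd
  obtain ⟨c, hc⟩ := mod_ex (by omega) h
  have h1 : 1 < r ^ b := Nat.one_lt_pow hb hr.one_lt
  have c1 : 1 ≤ c := by
    rcases c with _ | c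
    · omega
    · omega
  have cp : ∀ {x : ℕ}, ¬ r ∣ x → Nat.Coprime (r ^ b) x := fun hx =>
    Nat.Coprime.pow_left _ ((Nat.Prime.coprime_iff_not_dvd hr).2 hx)
  unfold mm at hd'
  by_cases hu : r ∣ 2 * a * (a + 1) + 1
  · exfalso
    have h2 : ¬ r ∣ 4 * a * (a + 1) := fun h3 => by
      have h4 : r ∣ 2 * (2 * a * (a + 1) + 1) := hu.mul_left 2
      have h5 : r ∣ 2 := (Nat.dvd_add_right h3).1 (by convert h4 using 1; ring)
      rw [(Nat.prime_dvd_prime_iff_eq hr Nat.prime_two).1 h5] at hu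
      have : 2 * a * (a + 1) + 1 = 2 * (a * (a + 1)) + 1 := by ring
      omega
    obtain ⟨j, hj⟩ := (cp h2).dvd_of_dvd_mul_left hd'
    have h3 : r ^ b * (2 * j) = 1 + p * p := by rw [mul_left_comm, ← hj, e]; ring
    have h4 : 2 * j ≡ 1 [MOD p] := by
      have h5 : r ^ b * (2 * j) ≡ 1 * (2 * j) [MOD p] := h.mul_right _
      rw [h3, one_mul] at h5
      exact h5.symm.trans (by simp [Nat.ModEq])
    obtain ⟨d, hd⟩ := mod_ex (by omega) h4
    have d1 : 1 ≤ d := by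
      rcases d with _ | d
      · omega
      · omega
    rw [hc, hd] at h3
    have : p ≤ c * p := Nat.le_mul_of_pos_left _ c1
    have : p ≤ d * p := Nat.le_mul_of_pos_left _ d1
    nlinarith
  have h2 := (cp hu).dvd_of_dvd_mul_right hd'
  have h3 : r ^ b ∣ 4 * (a + 1) ∨ r ^ b ∣ 4 * a := by
    by_cases ha : r ∣ a
    · exact Or.inr ((cp fun h4 => hr.one_lt.ne' (Nat.dvd_one.1 ((Nat.dvd_add_right ha).1
        h4))).dvd_of_dvd_mul_right h2)
    · exact Or.inl ((cp ha).dvd_of_dvd_mul_left (by convert h2 using 1; ring))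
  have h4 : r ^ b = p + 1 := by
    have h5 : r ^ b ≤ 4 * (a + 1) := by
      rcases h3 with h3 | h3 <;> have := Nat.le_of_dvd (by omega) h3 <;> omega
    have c2 : c ≤ 2 := by
      by_contra h6
      have : 3 * p ≤ c * p := Nat.mul_le_mul_right _ (by omega)
      omega
    obtain rfl | rfl : c = 1 ∨ c = 2 := by omega
    · omega
    · exfalso
      have h6 : r ^ b = 4 * a + 3 := by omega
      rw [h6] at h3
      rcases h3 with h3 | h3
      · have := (Nat.dvd_add_right (dvd_refl (4 * a + 3))).1 (show 4 * a + 3 ∣ 4 * a + 3 + 1 from h3)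
        have := Nat.le_of_dvd one_pos this
        omega
      · have := Nat.le_of_dvd (by omega) h3
        omega
  refine ⟨((Nat.prime_dvd_prime_iff_eq Nat.prime_two hr).1
    (Nat.prime_two.dvd_of_dvd_pow (n := b) ?_)).symm, h4⟩
  rw [h4]; omega

theorem odd_aux (e : p = 2 * a + 1) {x : ℕ} (hx : Odd x) :
    ¬ 2 ∣ p ^ 2 * (x * (2 * a * (a + 1) + 1)) := by
  have h1 : Odd p := ⟨a, e⟩
  have h2 : Odd (2 * a * (a + 1) + 1) := ⟨a * (a + 1), by ring⟩
  exact ((h1.pow.mul (hx.mul h2))).not_two_dvd_nat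

theorem arM (e : p = 2 * a + 1) (h : 4 ∣ p + 1) : ¬ 4 * (p + 1) ∣ p ^ 2 * mm a := fun h1 =>
  odd_aux e (x := a) (Nat.odd_iff.2 (by omega)) (Nat.dvd_of_mul_dvd_mul_left
    (show 0 < 4 * (a + 1) by omega) (by
      convert h1 using 1
      · rw [e]; ring
      · unfold mm; ring))

theorem arF (e : p = 2 * a + 1) (a3 : 3 ≤ a) (h : 2 ∣ a) : ¬ 8 * a ∣ p ^ 2 * mm a := fun h1 =>
  odd_aux e (x := a + 1) (Nat.odd_iff.2 (by omega)) (Nat.dvd_of_mul_dvd_mul_left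
    (show 0 < 4 * a by omega) (by
      convert h1 using 1
      · ring
      · unfold mm; ring))

theorem arL (e : p = 2 * a + 1) (a3 : 3 ≤ a) : ¬ 8 * a * (a + 1) ∣ p ^ 2 * mm a := fun h1 =>
  odd_aux e (x := 1) odd_one (Nat.dvd_of_mul_dvd_mul_left
    (show 0 < 4 * a * (a + 1) by positivity) (by
      convert h1 using 1
      · ring
      · unfold mm; ring))

theorem ar3 (e : p = 2 * a + 1) (a3 : 3 ≤ a) {n : ℕ} (h : n ≡ 1 [MOD p ^ 2])
    (hd : n ∣ p ^ 2 * mm a) (h1 : n ≠ 1) : n = p ^ 2 + 1 := by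
  obtain ⟨c, hc⟩ := dvd_mm (cop_of_mod (h.of_dvd (dvd_pow_self p two_ne_zero))) hd
  have h2 : 2 ≤ p ^ 2 := by nlinarith
  obtain ⟨k, hk⟩ := mod_ex (by omega) h
  have h3 := key (c := 2 * c) (k := k) h2 (by
    rw [← hk, ← pow_add, e, mm_eq, hc]; ring) (by
    rcases k with _ | k
    · omega
    · omega)
  rw [hk, h3]; ring

theorem ar4 (e : p = 2 * a + 1) (a3 : 3 ≤ a) {s : ℕ} (h : s ≡ 1 [MOD p])
    (hd : s ∣ p ^ 2 * (2 * a * (a + 1))) (h1 : s ≠ 1) : s = p + 1 := by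
  obtain ⟨c, hc⟩ := ((cop_of_mod h).pow_right 2).dvd_of_dvd_mul_left hd
  obtain ⟨k, hk⟩ := mod_ex (by omega) h
  have h3 := key (q := p) (c := 2 * c) (k := k) (by omega) (by
    rw [← hk, mul_assoc, mul_comm c, ← hc, e]; ring) (by
    rcases k with _ | k
    · omega
    · omega)
  rw [hk, h3]; ring

theorem ar5 (e : p = 2 * a + 1) (a3 : 3 ≤ a) {k c m : ℕ} (hk : 2 * a = 2 ^ k)
    (hc : 2 * a * (2 * a - 1) ∣ c) (hd : m * c ∣ mm a) (h : p ^ 2 ≤ m ∨ c ≤ m) : False := by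
  obtain ⟨b, hb⟩ : ∃ b, 2 * a = b + 1 := ⟨2 * a - 1, by omega⟩
  rw [hb, Nat.add_sub_cancel] at hc
  have h1 : b ∣ 2 * mm a := ((Dvd.intro_left _ rfl).trans (hc.trans ((Dvd.intro_left _ rfl).trans
    hd))).mul_left 2
  have h2 : 2 * mm a = b * (b ^ 3 + 8 * b ^ 2 + 24 * b + 32) + 15 := by
    have := mm_eq a
    rw [hb] at this
    nlinarith
  rw [h2] at h1
  have h3 : b ∣ 15 := (Nat.dvd_add_right (Dvd.intro _ rfl)).1 h1
  have h4 := Nat.le_of_dvd (by norm_num) h3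
  have h5 : b = 5 ∨ b = 15 := by
    have : 5 ≤ b := by omega
    interval_cases b <;> omega
  rcases h5 with rfl | rfl
  · rw [hb] at hk
    have : 3 ∣ 2 ^ k := hk ▸ by norm_num
    exact absurd (Nat.prime_three.dvd_of_dvd_pow this) (by norm_num)
  · obtain rfl : a = 8 := by omega
    subst e
    have h6 := Nat.le_of_dvd (by norm_num [mm]) hd
    have h7 : c ≠ 0 := by
      rintro rfl
      norm_num [mm] at hd
    have h8 := Nat.le_of_dvd (by omega) hc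
    norm_num [mm] at h6 h8 h
    rcases h with h | h <;> nlinarith

theorem ar6 (hp : 1 < p) {n j : ℕ} (h : n ≡ 1 [MOD p]) (hd : n * j = (p + 1) * (p ^ 2 + 1)) :
    j = 1 ∨ n ≤ p ^ 2 + 1 := by
  have h4 : j ≡ 1 [MOD p] := by
    have h5 : n * j ≡ 1 * j [MOD p] := h.mul_right _
    rw [hd, one_mul, show (p + 1) * (p ^ 2 + 1) = 1 + p * (p ^ 2 + p + 1) by ring] at h5
    exact h5.symm.trans (by simp [Nat.ModEq])
  obtain ⟨d, rfl⟩ := mod_ex hp h4
  rcases d with _ | d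
  · simp
  · right
    by_contra h1
    have h2 : p + 1 ≤ 1 + (d + 1) * p := by nlinarith
    have := Nat.mul_le_mul (show p ^ 2 + 1 + 1 ≤ n by omega) h2
    nlinarith

theorem ar7 (hp : p.Prime) (e : p = 2 * a + 1) {r : ℕ} (hr : r.Prime)
    (hu : r ∣ 2 * a * (a + 1) + 1) : r ≠ 2 ∧ r ≠ p ∧ ¬ r ∣ p + 1 ∧ ¬ r ∣ p ^ 2 * a := by
  have h0 : ∀ x, r ∣ x → x ∣ 2 * a * (a + 1) → False := fun x h1 h2 =>
    hr.one_lt.ne' (Nat.dvd_one.1 ((Nat.dvd_add_right (h1.trans h2)).1 hu))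
  have h1 : r ≠ p := by
    rintro rfl
    have h2 : r ∣ r * r + 1 := by
      have := hu.mul_left 2
      rwa [show 2 * (2 * a * (a + 1) + 1) = r * r + 1 by rw [e]; ring] at this
    exact hr.one_lt.ne' (Nat.dvd_one.1 ((Nat.dvd_add_right (Dvd.intro _ rfl)).1 h2))
  refine ⟨fun h => h0 2 (h ▸ dvd_refl _) ⟨a * (a + 1), by ring⟩, h1,
    fun h => h0 _ h ⟨a, by rw [e]; ring⟩, fun h => ?_⟩
  rcases (Nat.Prime.dvd_mul hr).1 h with h | h
  · exact h1 ((Nat.prime_dvd_prime_iff_eq hr hp).1 (hr.dvd_of_dvd_pow h))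
  · exact h0 _ h ⟨2 * (a + 1), by ring⟩

end H15.L2S
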